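import Cfsg.Agent.H405.PSqArith

/-!
# Simple groups whose order divides `p ^ 2 (p ^ 4 - 1) / 2` (helper405): small rank and conclusion
-/

set_option autoImplicit false

namespace Cfsg.Agent.H405.PSq

open Cfsg.Agent.OrdDiv Cfsg.Agent.H405.Shape

variable {p : ℕ} (hp : p.Prime) (h7 : 7 ≤ p)

include hp h7

omit hp h7 in
theorem tri_ge {n : ℕ} (hn : 5 ≤ n) : n * 2 ≤ n * (n - 1) / 2 := by
  have h1 : n * 4 ≤ n * (n - 1) := Nat.mul_le_mul_left _ (by omega)
  omega

theorem psl_big {n q c : ℕ} (hn : 4 ≤ n) (h : Ord (.psl n q) c) (hd : c ∣ D p) (hpc : p ∣ c) :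
    False := by
  obtain ⟨-, -, h⟩ := h
  have hq : 2 ≤ q := h.pp.two_le
  by_cases hn5 : 5 ≤ n
  · have ht := tri_ge hn5
    refine big hp h7 (X := q ^ n) h (by omega) hd hpc (sq_le hq ht)
      (three_le hq (by omega)) ?_
    intro h5
    obtain ⟨i, hi, h6⟩ := exists_of_dvd_prod hp h5
    exact (le_fac hp (j := i + 1) hq (by omega) (by omega)).1 h6
  · obtain rfl : n = 4 := by omega
    refine big hp h7 (X := q ^ 3) h (by norm_num) hd hpc (sq_le hq (by norm_num))
      (three_le hq (by omega)) ?_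
    intro h5
    obtain ⟨i, hi, h6⟩ := exists_of_dvd_prod hp h5
    by_cases hi3 : i = 3
    · subst hi3
      exact (le_fac hp (j := 2) hq (by omega) (by omega)).2.2 h6
    · exact (le_fac hp (j := i + 1) hq (by omega) (by omega)).1 h6

theorem psu_big {n q c : ℕ} (hn : 4 ≤ n) (h : Ord (.psu n q) c) (hd : c ∣ D p) (hpc : p ∣ c) :
    False := by
  obtain ⟨-, -, h⟩ := h
  have hq : 2 ≤ q := h.pp.two_le
  by_cases hn5 : 5 ≤ n
  · have ht := tri_ge hn5
    refine big hp h7 (X := q ^ n) h (by omega) hd hpc (sq_le hq ht)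
      (three_le hq (by omega)) ?_
    intro h5
    obtain ⟨i, hi, h6⟩ := exists_of_dvd_prod hp h5
    by_cases he : Even i
    · rw [if_pos he] at h6
      exact (le_fac hp (j := i + 1) hq (by omega) (by omega)).2.1 h6
    · rw [if_neg he] at h6
      exact (le_fac hp (j := i + 1) hq (by omega) (by omega)).1 h6
  · obtain rfl : n = 4 := by omega
    refine big hp h7 (X := q ^ 3) h (by norm_num) hd hpc (sq_le hq (by norm_num))
      (three_le hq (by omega)) ?_
    intro h5
    obtain ⟨i, hi, h6⟩ := exists_of_dvd_prod hp h5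
    by_cases hi3 : i = 3
    · subst hi3
      rw [if_neg (by decide)] at h6
      exact (le_fac hp (j := 2) hq (by omega) (by omega)).2.2 h6
    · by_cases he : Even i
      · rw [if_pos he] at h6
        exact (le_fac hp (j := i + 1) hq (by omega) (by omega)).2.1 h6
      · rw [if_neg he] at h6
        exact (le_fac hp (j := i + 1) hq (by omega) (by omega)).1 h6

/-- `q ^ 3 ∣ (p ^ 2 + 1) / 2` and `p ∣ a` with `a ^ 2 ≡ 1 mod q`. -/
theorem bound_of_dvd {q a : ℕ} (hq3 : q ^ 3 ∣ (p ^ 2 + 1) / 2) (ha : p ∣ a) (ha0 : 0 < a)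
    (ha1 : q ∣ a ^ 2 - 1) (hsz : 2 * q ^ 3 ≤ p ^ 2 + 1) (hq1 : 1 ≤ q) :
    (q - 1) * (2 * q ^ 3 - 1) ≤ a ^ 2 := by
  obtain ⟨s, rfl⟩ := ha
  obtain ⟨-, h2, -⟩ := half_eq hp h7
  have h3 : q ∣ p ^ 2 + 1 := by
    rw [← h2]
    exact Dvd.dvd.mul_left ((dvd_pow_self q (by norm_num)).trans hq3) 2
  have h4 : q ∣ s ^ 2 * (p ^ 2 + 1) := Dvd.dvd.mul_left h3 _
  have hs0 : 0 < s := Nat.pos_of_mul_pos_left ha0
  have hps : 1 ≤ (p * s) ^ 2 := Nat.one_le_pow _ _ ha0
  have h5 : q ∣ s ^ 2 + 1 := by
    have h6 := Nat.dvd_sub h4 ha1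
    have h7 : s ^ 2 * (p ^ 2 + 1) - ((p * s) ^ 2 - 1) = s ^ 2 + 1 := by
      have : s ^ 2 * (p ^ 2 + 1) = (p * s) ^ 2 + s ^ 2 := by ring
      omega
    rwa [h7] at h6
  have h6 : q ≤ s ^ 2 + 1 := Nat.le_of_dvd (by omega) h5
  have h8 : (p * s) ^ 2 = s ^ 2 * p ^ 2 := by ring
  rw [h8]
  exact Nat.mul_le_mul (by omega) (by omega)

theorem psl_three {q c : ℕ} (h : Ord (.psl 3 q) c) (hd : c ∣ D p) (hpc : p ∣ c) :
    p = 7 ∧ q = 2 := by
  obtain ⟨-, -, h⟩ := h
  have hq : 2 ≤ q := h.pp.two_le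
  have hpq : ¬ p ∣ q := by
    intro hpq
    rcases char_eq hp h7 h (by norm_num) hd hpq with h1 | h1 <;> omega
  have h1 : 2 * q ^ 3 ≤ p ^ 2 + 1 := le_of_lie hp h7 h (by norm_num) hd hpq
  have hsmall : ¬ p ≤ q + 1 := by
    intro h2
    have h3 : p ^ 2 ≤ (q + 1) ^ 2 := Nat.pow_le_pow_left h2 2
    have h4 : 2 * q ^ 2 ≤ q ^ 3 := by
      rw [pow_succ q 2, mul_comm 2]
      exact Nat.mul_le_mul_left _ hq
    nlinarith
  have h2 := dvd_f hp h hpc hpq
  have h3 : p ∣ q ^ 2 + q + 1 := by
    obtain ⟨i, hi, h6⟩ := exists_of_dvd_prod hp h2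
    interval_cases i
    · exfalso
      have := Nat.le_of_dvd (by simp; omega) h6
      simp at this
      omega
    · exfalso
      have := le_of_dvd_even hp (j := 1) hq (by norm_num) h6
      simp at this
      omega
    · have h8 : q ^ (2 + 1) - 1 = (q - 1) * (q ^ 2 + q + 1) := by
        obtain ⟨t, rfl⟩ : ∃ t, q = t + 1 := ⟨q - 1, by omega⟩
        rw [Nat.add_sub_cancel, Nat.sub_eq_iff_eq_add (Nat.one_le_pow _ _ (by omega))]
        ring
      rw [h8] at h6
      rcases (hp.dvd_mul).mp h6 with h9 | h9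
      · exfalso
        have := Nat.le_of_dvd (by omega) h9
        omega
      · exact h9
  have hple := Nat.le_of_dvd (by positivity) h3
  have hR : IsPrimePow (q ^ 3) := pp_pow h.pp (by norm_num)
  have hpR : ¬ p ∣ q ^ 3 := fun h' => hpq (hp.dvd_of_dvd_pow h')
  have hq3 : q ^ 3 ∣ D p := (pow_dvd h).trans hd
  rcases ppow_cases hp h7 hR hpR hq3 with ⟨ho, h4⟩ | ⟨ho, h4⟩ | ⟨he, h4⟩
  · exfalso
    have hqo : q % 2 = 1 := by
      rcases Nat.mod_two_eq_zero_or_one q with h | h
      · rw [Nat.pow_mod, h] at ho; simp at ho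
      · exact h
    have h5 := bound_of_dvd hp h7 h4 h3 (by positivity) (by
      have : (q ^ 2 + q + 1) ^ 2 - 1 = q * ((q + 1) * (q ^ 2 + q + 2)) := by
        rw [Nat.sub_eq_iff_eq_add (Nat.one_le_pow _ _ (by positivity))]
        ring
      rw [this]; exact dvd_mul_right _ _) h1 (by omega)
    by_cases hq5 : 5 ≤ q
    · obtain ⟨t, rfl⟩ : ∃ t, q = t + 5 := ⟨q - 5, by omega⟩
      have h6 : (t + 5 - 1) * (2 * (t + 5) ^ 3 - 1) = (t + 4) * (2 * t ^ 3 + 30 * t ^ 2 + 150 * t + 249) := by
        have h10 := Nat.one_le_pow 3 (t + 5) (by omega)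
        rw [show t + 5 - 1 = t + 4 by omega]
        congr 1
        rw [Nat.sub_eq_iff_eq_add (by omega)]
        ring
      rw [h6] at h5
      nlinarith
    · have hq3' : q = 3 := by omega
      subst hq3'
      have hp13 : p = 13 := by
        have h6 : p ∣ 13 := by simpa using h3
        rcases (Nat.dvd_prime (by norm_num)).mp h6 with h | h <;> omega
      subst hp13
      revert h4; decide
  · exfalso
    have hqo : q % 2 = 1 := by
      rcases Nat.mod_two_eq_zero_or_one q with h | h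
      · rw [Nat.pow_mod, h] at ho; simp at ho
      · exact h
    have hq3' : 3 ≤ q := by omega
    have h5 : q ^ 3 ≤ p + 1 := by
      rcases h4 with h4 | h4
      · have := Nat.le_of_dvd (by omega) h4; omega
      · exact Nat.le_of_dvd (by omega) h4
    have h6 : 3 * q ^ 2 ≤ q ^ 3 := by
      rw [pow_succ q 2, mul_comm 3]
      exact Nat.mul_le_mul_left _ hq3'
    nlinarith
  · have h5 : q ^ 3 ≤ 2 * (p + 1) := by
      rcases h4 with h4 | h4
      · have := Nat.le_of_dvd (by omega) h4; omega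
      · exact Nat.le_of_dvd (by omega) h4
    have hq2 : q = 2 := by
      by_contra hne
      have hqe : q % 2 = 0 := by
        rcases Nat.mod_two_eq_zero_or_one q with h | h
        · exact h
        · rw [Nat.pow_mod, h] at he; simp at he
      have hq4 : 4 ≤ q := by omega
      have h6 : 4 * q ^ 2 ≤ q ^ 3 := by
        rw [pow_succ q 2, mul_comm 4]
        exact Nat.mul_le_mul_left _ hq4
      nlinarith
    subst hq2
    refine ⟨?_, rfl⟩
    have h6 : p ∣ 7 := by simpa using h3
    rcases (Nat.dvd_prime (by norm_num)).mp h6 with h | h <;> omega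

theorem psu_three {q c : ℕ} (h : Ord (.psu 3 q) c) (hd : c ∣ D p) (hpc : p ∣ c) : False := by
  obtain ⟨-, hne2, h⟩ := h
  have hq : 2 ≤ q := h.pp.two_le
  have hq2 : 3 ≤ q := by
    by_contra hh
    exact hne2 ⟨rfl, by omega⟩
  have hpq : ¬ p ∣ q := by
    intro hpq
    rcases char_eq hp h7 h (by norm_num) hd hpq with h1 | h1 <;> omega
  have h1 : 2 * q ^ 3 ≤ p ^ 2 + 1 := le_of_lie hp h7 h (by norm_num) hd hpq
  have hsmall : ¬ p ≤ q + 1 := by
    intro h2
    have h3 : p ^ 2 ≤ (q + 1) ^ 2 := Nat.pow_le_pow_left h2 2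
    have h4 : 2 * q ^ 2 ≤ q ^ 3 := by
      rw [pow_succ q 2, mul_comm 2]
      exact Nat.mul_le_mul_left _ hq
    nlinarith
  have h2 := dvd_f hp h hpc hpq
  obtain ⟨t, rfl⟩ : ∃ t, q = t + 1 := ⟨q - 1, by omega⟩
  have h3 : p ∣ t ^ 2 + t + 1 := by
    obtain ⟨i, hi, h6⟩ := exists_of_dvd_prod hp h2
    interval_cases i
    · exfalso
      rw [if_pos (by decide)] at h6
      have := Nat.le_of_dvd (by positivity) h6
      simp at this
      omega
    · exfalso
      rw [if_neg (by decide)] at h6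
      have := le_of_dvd_even hp (j := 1) hq (by norm_num) h6
      simp at this
      omega
    · rw [if_pos (by decide)] at h6
      have h8 : (t + 1) ^ (2 + 1) + 1 = (t + 1 + 1) * (t ^ 2 + t + 1) := by ring
      rw [h8] at h6
      rcases (hp.dvd_mul).mp h6 with h9 | h9
      · exfalso
        have := Nat.le_of_dvd (by omega) h9
        omega
      · exact h9
  have hple := Nat.le_of_dvd (by positivity) h3
  have hR : IsPrimePow ((t + 1) ^ 3) := pp_pow h.pp (by norm_num)
  have hpR : ¬ p ∣ (t + 1) ^ 3 := fun h' => hpq (hp.dvd_of_dvd_pow h')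
  have hq3 : (t + 1) ^ 3 ∣ D p := (pow_dvd h).trans hd
  rcases ppow_cases hp h7 hR hpR hq3 with ⟨ho, h4⟩ | ⟨ho, h4⟩ | ⟨he, h4⟩
  · have h5 := bound_of_dvd hp h7 h4 h3 (by positivity) (by
      have : (t ^ 2 + t + 1) ^ 2 - 1 = (t + 1) * (t * (t ^ 2 + t + 2)) := by
        rw [Nat.sub_eq_iff_eq_add (Nat.one_le_pow _ _ (by positivity))]
        ring
      rw [this]; exact dvd_mul_right _ _) h1 (by omega)
    obtain ⟨s, rfl⟩ : ∃ s, t = s + 2 := ⟨t - 2, by omega⟩
    have h6 : (s + 2 + 1 - 1) * (2 * (s + 2 + 1) ^ 3 - 1) =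
        (s + 2) * (2 * s ^ 3 + 18 * s ^ 2 + 54 * s + 53) := by
      have h10 := Nat.one_le_pow 3 (s + 2 + 1) (by omega)
      rw [show s + 2 + 1 - 1 = s + 2 by omega]
      congr 1
      rw [Nat.sub_eq_iff_eq_add (by omega)]
      ring
    rw [h6] at h5
    nlinarith
  · have h5 : (t + 1) ^ 3 ≤ p + 1 := by
      rcases h4 with h4 | h4
      · have := Nat.le_of_dvd (by omega) h4; omega
      · exact Nat.le_of_dvd (by omega) h4
    nlinarith
  · have h5 : (t + 1) ^ 3 ≤ 2 * (p + 1) := by
      rcases h4 with h4 | h4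
      · have := Nat.le_of_dvd (by omega) h4; omega
      · exact Nat.le_of_dvd (by omega) h4
    have hqe : (t + 1) % 2 = 0 := by
      rcases Nat.mod_two_eq_zero_or_one (t + 1) with h | h
      · exact h
      · rw [Nat.pow_mod, h] at he; simp at he
    have ht3 : 3 ≤ t := by omega
    nlinarith

theorem sz_false {q c : ℕ} (h : Ord (.sz q) c) (hd : c ∣ D p) (hpc : p ∣ c) : False := by
  obtain ⟨⟨m, hm, hqm⟩, h⟩ := h
  have hq : 2 ≤ q := h.pp.two_le
  have hpq : ¬ p ∣ q := by
    intro hpq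
    rw [hqm] at hpq
    have := Nat.le_of_dvd (by norm_num) (hp.dvd_of_dvd_pow hpq)
    omega
  have h1 : 2 * q ^ 2 ≤ p ^ 2 + 1 := le_of_lie hp h7 h (by norm_num) hd hpq
  have hqe : q % 2 = 0 := by
    rw [hqm, pow_succ]; omega
  rcases (hp.dvd_mul).mp (dvd_f hp h hpc hpq) with h2 | h2
  · have h3 := Nat.le_of_dvd (by omega) h2
    have h4 : p + 1 ≤ q := by omega
    have h5 : (p + 1) ^ 2 ≤ q ^ 2 := Nat.pow_le_pow_left h4 2
    nlinarith
  · have hR : IsPrimePow (q ^ 2) := pp_pow h.pp (by norm_num)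
    have hpR : ¬ p ∣ q ^ 2 := fun h' => hpq (hp.dvd_of_dvd_pow h')
    have hq2 : q ^ 2 ∣ D p := (pow_dvd h).trans hd
    have hqe2 : q ^ 2 % 2 = 0 := by rw [Nat.pow_mod, hqe]
    rcases ppow_cases hp h7 hR hpR hq2 with ⟨ho, h4⟩ | ⟨ho, h4⟩ | ⟨he, h4⟩
    · omega
    · omega
    · have h5 : q ^ 2 ≤ 2 * (p + 1) := by
        rcases h4 with h4 | h4
        · have := Nat.le_of_dvd (by omega) h4; omega
        · exact Nat.le_of_dvd (by omega) h4
      obtain ⟨s, hs⟩ := h2
      have hs3 : s < 3 := by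
        by_contra hh
        have : p * 3 ≤ p * s := Nat.mul_le_mul_left _ (by omega)
        omega
      have hp5 : p = q ^ 2 + 1 := by
        interval_cases s
        · omega
        · omega
        · omega
      have h6 : q ^ 2 % 5 = 4 := by
        rw [hqm, ← pow_mul, show (2 * m + 1) * 2 = 4 * m + 2 by ring, pow_add, pow_mul]
        rw [Nat.mul_mod, Nat.pow_mod]
        norm_num
      have h8 : 5 ∣ p := by omega
      have := (Nat.prime_dvd_prime_iff_eq (by norm_num) hp).mp h8
      omega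

theorem ree_false {q c : ℕ} (h : Ord (.ree q) c) (hd : c ∣ D p) (hpc : p ∣ c) : False := by
  obtain ⟨⟨m, hm, hqm⟩, h⟩ := h
  have hpq : ¬ p ∣ q := by
    intro hpq
    rw [hqm] at hpq
    have := Nat.le_of_dvd (by norm_num) (hp.dvd_of_dvd_pow hpq)
    omega
  have hq3 : 3 ∣ q := by rw [hqm, pow_succ]; exact dvd_mul_left _ _
  have hq : 3 ≤ q := Nat.le_of_dvd (by have := h.pp.two_le; omega) hq3
  have hR : IsPrimePow (q ^ 3) := pp_pow h.pp (by norm_num)
  have hpR : ¬ p ∣ q ^ 3 := fun h' => hpq (hp.dvd_of_dvd_pow h')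
  have hq2 : q ^ 3 ∣ D p := (pow_dvd h).trans hd
  have hqo : q ^ 3 % 2 = 1 := by
    rw [hqm, ← pow_mul, Nat.pow_mod]; norm_num
  rcases ppow_cases hp h7 hR hpR hq2 with ⟨ho, h4⟩ | ⟨ho, h4⟩ | ⟨he, h4⟩
  · obtain ⟨-, h2, -⟩ := half_eq hp h7
    have h3 : 3 ∣ p ^ 2 + 1 := by
      rw [← h2]
      exact Dvd.dvd.mul_left ((hq3.trans (dvd_pow_self q (by norm_num))).trans h4) 2
    have h5 : p ^ 2 % 3 = 0 ∨ p ^ 2 % 3 = 1 := by
      have : p % 3 = 0 ∨ p % 3 = 1 ∨ p % 3 = 2 := by omega
      rcases this with h | h | h <;> simp [Nat.pow_mod, h]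
    omega
  · have h5 : q ^ 3 ≤ p + 1 := by
      rcases h4 with h4 | h4
      · have := Nat.le_of_dvd (by omega) h4; omega
      · exact Nat.le_of_dvd (by omega) h4
    obtain ⟨t, rfl⟩ : ∃ t, q = t + 1 := ⟨q - 1, by omega⟩
    have h8 : (t + 1) ^ 3 + 1 = (t + 1 + 1) * (t ^ 2 + t + 1) := by ring
    have h9 := dvd_f hp h hpc hpq
    rw [h8] at h9
    simp only [hp.dvd_mul] at h9
    have h10 : 9 * (t + 1) ≤ (t + 1) ^ 3 := by
      rw [pow_succ]; exact Nat.mul_le_mul_right _ (by nlinarith)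
    rcases h9 with h9 | h9 | h9
    · have := Nat.le_of_dvd (by omega) h9
      omega
    · have := Nat.le_of_dvd (by omega) h9
      omega
    · have := Nat.le_of_dvd (by positivity) h9
      nlinarith
  · omega

theorem psl_two {q c : ℕ} (h : Ord (.psl 2 q) c) (hd : c ∣ D p) (hpc : p ∣ c) :
    q = p ∨ q = p ^ 2 ∨ (p = 17 ∧ q = 16) := by
  obtain ⟨-, hq4, h⟩ := h
  have hq4 : 4 ≤ q := hq4 rfl
  by_cases hpq : p ∣ q
  · rcases char_eq hp h7 h (by norm_num) hd hpq with h1 | h1
    · exact Or.inl h1.1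
    · exact Or.inr (Or.inl h1.1)
  have h2 := dvd_f hp h hpc hpq
  have h3 : p ∣ q - 1 ∨ p ∣ q + 1 := by
    obtain ⟨i, hi, h6⟩ := exists_of_dvd_prod hp h2
    interval_cases i
    · left; simpa using h6
    · have h8 : q ^ (1 + 1) - 1 = (q + 1) * (q - 1) := by
        rw [← Nat.sq_sub_sq, one_pow]
      rw [h8] at h6
      exact ((hp.dvd_mul).mp h6).symm
  have hpo := odd_p hp h7
  have hqR : q ∣ D p := by
    have := (pow_dvd h).trans hd
    rwa [show 2 * (2 - 1) / 2 = 1 by norm_num, pow_one] at this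
  rcases ppow_cases hp h7 h.pp hpq hqR with ⟨ho, h4⟩ | ⟨ho, h4⟩ | ⟨he, h4⟩
  · exfalso
    obtain ⟨-, h5, -⟩ := half_eq hp h7
    obtain ⟨s, hs⟩ := h4
    rw [hs] at h5
    have hs0 : 0 < s := by
      rcases Nat.eq_zero_or_pos s with h | h
      · subst h; have : 0 < p ^ 2 := by positivity
        omega
      · exact h
    rcases h3 with h3 | h3
    · obtain ⟨k, hk⟩ := h3
      have hqk : q = p * k + 1 := by omega
      have hk0 : k % 2 = 0 := by
        rcases Nat.mod_two_eq_zero_or_one k with h | h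
        · exact h
        · have : (p * k) % 2 = 1 := by rw [Nat.mul_mod, hpo, h]
          omega
      have hk1 : 0 < k := by
        rcases Nat.eq_zero_or_pos k with h | h
        · subst h; omega
        · exact h
      have hk2 : 2 ≤ k := by omega
      have h6 : p ∣ 2 * s - 1 := by
        have h7 : p ∣ p ^ 2 := dvd_pow_self p (by norm_num)
        have h8 : p ∣ 2 * (s * (p * k)) := Dvd.dvd.mul_left (Dvd.dvd.mul_left (dvd_mul_right _ _) _) _
        have h9 := Nat.dvd_sub h7 h8
        have h10 : p ^ 2 - 2 * (s * (p * k)) = 2 * s - 1 := by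
          have : 2 * (q * s) = 2 * (s * (p * k)) + 2 * s := by rw [hqk]; ring
          omega
        rwa [h10] at h9
      have h8 := Nat.le_of_dvd (by omega) h6
      have h9 : 2 * p + 1 ≤ q := by
        rw [hqk]
        have : p * 2 ≤ p * k := Nat.mul_le_mul_left _ hk2
        omega
      have h11 : p + 1 ≤ 2 * s := by omega
      have h12 := Nat.mul_le_mul h9 h11
      nlinarith
    · obtain ⟨k, hk⟩ := h3
      have hk0 : k % 2 = 0 := by
        rcases Nat.mod_two_eq_zero_or_one k with h | h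
        · exact h
        · have : (p * k) % 2 = 1 := by rw [Nat.mul_mod, hpo, h]
          omega
      have hk1 : 0 < k := by
        rcases Nat.eq_zero_or_pos k with h | h
        · subst h; omega
        · exact h
      have hk2 : 2 ≤ k := by omega
      have h6 : p ∣ 2 * s + 1 := by
        have h7 : p ∣ p ^ 2 := dvd_pow_self p (by norm_num)
        have h8 : p ∣ 2 * (s * (p * k)) := Dvd.dvd.mul_left (Dvd.dvd.mul_left (dvd_mul_right _ _) _) _
        have h10 : 2 * (s * (p * k)) = p ^ 2 + (2 * s + 1) := by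
          rw [← hk]
          have : 2 * (s * (q + 1)) = 2 * (q * s) + 2 * s := by ring
          omega
        rw [h10] at h8
        exact (Nat.dvd_add_right h7).mp h8
      have h8 := Nat.le_of_dvd (by omega) h6
      have h9 : 2 * p ≤ q + 1 := by
        rw [hk]
        have : p * 2 ≤ p * k := Nat.mul_le_mul_left _ hk2
        omega
      have h13 : 2 * p - 1 ≤ q := by omega
      have h11 : p - 1 ≤ 2 * s := by omega
      have h12 := Nat.mul_le_mul h13 h11
      obtain ⟨u, rfl⟩ : ∃ u, p = u + 7 := ⟨p - 7, by omega⟩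
      rw [show 2 * (u + 7) - 1 = 2 * u + 13 by omega, show u + 7 - 1 = u + 6 by omega] at h12
      nlinarith
  · exfalso
    have hc2 : Nat.Coprime q 2 := (Nat.coprime_two_right).mpr (Nat.odd_iff.mpr ho)
    have h5 : 2 * q ≤ p + 1 := by
      rcases h4 with h4 | h4
      · obtain ⟨s, hs⟩ : ∃ s, p - 1 = 2 * s := ⟨(p - 1) / 2, by omega⟩
        rw [hs] at h4
        have := Nat.le_of_dvd (by omega) (hc2.dvd_of_dvd_mul_left h4)
        omega
      · obtain ⟨s, hs⟩ : ∃ s, p + 1 = 2 * s := ⟨(p + 1) / 2, by omega⟩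
        rw [hs] at h4
        have := Nat.le_of_dvd (by omega) (hc2.dvd_of_dvd_mul_left h4)
        omega
    rcases h3 with h3 | h3
    · have := Nat.le_of_dvd (by omega) h3
      omega
    · have := Nat.le_of_dvd (by omega) h3
      omega
  · right; right
    have h5 : q ≤ 2 * (p + 1) := by
      rcases h4 with h4 | h4
      · have := Nat.le_of_dvd (by omega) h4; omega
      · exact Nat.le_of_dvd (by omega) h4
    -- the order
    have hc : c = q * (q ^ 2 - 1) := by
      have h6 := h.eq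
      rw [show 2 * (2 - 1) / 2 = 1 by norm_num, Finset.prod_range_succ, Finset.prod_range_one] at h6
      have h7 : Nat.gcd 2 (q - 1) = 1 := by
        rw [← Nat.coprime_iff_gcd_eq_one, Nat.coprime_two_left, Nat.odd_iff]
        omega
      rw [h7, one_mul, pow_one] at h6
      have h8 : 0 < q - 1 := by omega
      apply Nat.eq_of_mul_eq_mul_left h8
      rw [h6]; ring
    have h16 : ∀ x : ℕ, x ∣ c → x % 2 = 1 → Nat.Coprime x p → x ∣ p ^ 4 - 1 := by
      intro x hx hxo hxp
      have h9 : x ∣ p ^ 2 * (2 * ((p ^ 4 - 1) / 2)) := by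
        have : x ∣ 2 * D p := Dvd.dvd.mul_left (hx.trans hd) 2
        rw [D] at this
        rwa [show p ^ 2 * (2 * ((p ^ 4 - 1) / 2)) = 2 * (p ^ 2 * ((p ^ 4 - 1) / 2)) by ring]
      have h10 : 2 * ((p ^ 4 - 1) / 2) = p ^ 4 - 1 := by
        have : (p ^ 4) % 2 = 1 := by
          rw [Nat.pow_mod, hpo]
        omega
      rw [h10] at h9
      exact (Nat.Coprime.pow_right 2 hxp).dvd_of_dvd_mul_left h9
    rcases h3 with h3 | h3
    · -- `q = p + 1`
      exfalso
      obtain ⟨k, hk⟩ := h3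
      have hk3 : k < 3 := by
        by_contra hh
        have : p * 3 ≤ p * k := Nat.mul_le_mul_left _ (by omega)
        omega
      have hqp : q = p + 1 := by
        interval_cases k <;> omega
      have h6 : p + 2 ∣ p ^ 4 - 1 := by
        apply h16
        · rw [hc, hqp]
          have : (p + 1) ^ 2 - 1 = p * (p + 2) := by
            rw [Nat.sub_eq_iff_eq_add (Nat.one_le_pow _ _ (by omega))]
            ring
          rw [this]
          exact Dvd.dvd.mul_left (Dvd.dvd.mul_left (dvd_refl _) _) _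
        · omega
        · rw [Nat.coprime_comm, hp.coprime_iff_not_dvd]
          intro h8
          have := (Nat.dvd_add_right (dvd_refl p)).mp h8
          have := Nat.le_of_dvd (by norm_num) this
          omega
      have h8 : p + 2 ∣ 15 := by
        obtain ⟨t, rfl⟩ : ∃ t, p = t + 2 := ⟨p - 2, by omega⟩
        have h9 : (t + 2) ^ 4 - 1 = (t + 2 + 2) * (t ^ 3 + 4 * t ^ 2 + 8 * t) + 15 := by
          rw [Nat.sub_eq_iff_eq_add (Nat.one_le_pow _ _ (by omega))]
          ring
        rw [h9] at h6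
        exact (Nat.dvd_add_right (dvd_mul_right _ _)).mp h6
      have h9 := Nat.le_of_dvd (by norm_num) h8
      have hp13 : p = 13 := by
        have : p ≤ 13 := by omega
        interval_cases p
        all_goals first | rfl | (exfalso; revert h8; decide)
      subst hp13
      subst hqp
      have := h.pp
      revert this
      rw [show 13 + 1 = 14 by norm_num, isPrimePow_nat_iff_bounded]
      decide
    · obtain ⟨k, hk⟩ := h3
      have hk3 : k < 3 := by
        by_contra hh
        have : p * 3 ≤ p * k := Nat.mul_le_mul_left _ (by omega)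
        omega
      have hqp : q = p - 1 := by
        interval_cases k <;> omega
      have h6 : p - 2 ∣ p ^ 4 - 1 := by
        apply h16
        · rw [hc, hqp]
          obtain ⟨t, rfl⟩ : ∃ t, p = t + 2 := ⟨p - 2, by omega⟩
          have : (t + 2 - 1) ^ 2 - 1 = (t + 2) * t := by
            rw [show t + 2 - 1 = t + 1 by omega,
              Nat.sub_eq_iff_eq_add (Nat.one_le_pow _ _ (by omega))]
            ring
          rw [this, show t + 2 - 2 = t by omega]
          exact Dvd.dvd.mul_left (Dvd.dvd.mul_left (dvd_refl _) _) _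
        · omega
        · rw [Nat.coprime_comm, hp.coprime_iff_not_dvd]
          intro h8
          have := Nat.le_of_dvd (by omega) h8
          omega
      have h8 : p - 2 ∣ 15 := by
        obtain ⟨t, rfl⟩ : ∃ t, p = t + 2 := ⟨p - 2, by omega⟩
        have h9 : (t + 2) ^ 4 - 1 = (t + 2 - 2) * (t ^ 3 + 8 * t ^ 2 + 24 * t + 32) + 15 := by
          rw [Nat.sub_eq_iff_eq_add (Nat.one_le_pow _ _ (by omega)), show t + 2 - 2 = t by omega]
          ring
        rw [h9] at h6
        exact (Nat.dvd_add_right (dvd_mul_right _ _)).mp h6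
      have h9 := Nat.le_of_dvd (by norm_num) h8
      have hp17 : p = 17 ∨ p = 7 := by
        have : p ≤ 17 := by omega
        interval_cases p
        all_goals first | (left; rfl) | (right; rfl) | (exfalso; revert h8; decide)
      rcases hp17 with h10 | h10
      · subst h10
        exact ⟨rfl, hqp⟩
      · exfalso
        subst h10
        subst hqp
        have := h.pp
        revert this
        rw [show 7 - 1 = 6 by norm_num, isPrimePow_nat_iff_bounded]
        decide

/-- **Arithmetic**: the known simple groups of order dividing `p ^ 2 (p ^ 4 - 1) / 2` and divisible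
by the prime `p ≥ 7`. -/
theorem arith {g : Grp} {c : ℕ} (h : Ord g c) (hd : c ∣ D p) (hpc : p ∣ c) :
    g = .psl 2 p ∨ g = .psl 2 (p ^ 2) ∨ (p = 17 ∧ g = .psl 2 16) ∨ (p = 7 ∧ g = .psl 3 2) := by
  cases g with
  | alt n => exact (alt_false hp h7 h.2 hd hpc).elim
  | psl n q =>
    have hn := h.1
    by_cases h2 : n = 2
    · subst h2
      rcases psl_two hp h7 h hd hpc with h1 | h1 | h1
      · left; rw [h1]
      · right; left; rw [h1]
      · right; right; left; exact ⟨h1.1, by rw [h1.2]⟩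
    · by_cases h3 : n = 3
      · subst h3
        have h1 := psl_three hp h7 h hd hpc
        right; right; right; exact ⟨h1.1, by rw [h1.2]⟩
      · exact (psl_big hp h7 (by omega) h hd hpc).elim
  | psp m q => exact (psp_false hp h7 h hd hpc).elim
  | psu n q =>
    have hn := h.1
    by_cases h3 : n = 3
    · subst h3
      exact (psu_three hp h7 h hd hpc).elim
    · exact (psu_big hp h7 (by omega) h hd hpc).elim
  | oodd m q => exact (oodd_false hp h7 h hd hpc).elim
  | oplus m q => exact (oplus_false hp h7 h hd hpc).elim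
  | ominus m q => exact (ominus_false hp h7 h hd hpc).elim
  | g2 q => exact (g2_false hp h7 h hd hpc).elim
  | f4 q => exact (f4_false hp h7 h hd hpc).elim
  | e6 q => exact (e6_false hp h7 h hd hpc).elim
  | e7 q => exact (e7_false hp h7 h hd hpc).elim
  | e8 q => exact (e8_false hp h7 h hd hpc).elim
  | te6 q => exact (te6_false hp h7 h hd hpc).elim
  | td4 q => exact (td4_false hp h7 h hd hpc).elim
  | sz q => exact (sz_false hp h7 h hd hpc).elim
  | ree q => exact (ree_false hp h7 h hd hpc).elim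
  | tf4 q => exact (tf4_false hp h7 h hd hpc).elim
  | _ => exact (spor_false hp h7 h hd hpc).elim

end Cfsg.Agent.H405.PSq
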