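import Cfsg.Agent.H405.PSqMin

/-!
# Groups of order `p ^ 2 (p ^ 4 - 1) / 2` without normal `p`-subgroups are simple (helper405)
-/

set_option autoImplicit false

namespace Cfsg.Agent.H405.PSq

open Subgroup Cfsg.Agent.Lib

universe u

/-- The possible orders of the simple sections with order divisible by `p`. -/
def Ok (p c : ℕ) : Prop := 2 * c = p * (p ^ 2 - 1) ∨ c = D p ∨ (p = 17 ∧ c = 4080)

section arith

variable {p : ℕ} (hp : p.Prime) (h7 : 7 ≤ p)

include hp h7

theorem eight_dvd : 8 ∣ p ^ 2 - 1 := by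
  have h := odd_p hp h7
  obtain ⟨k, rfl⟩ : ∃ k, p = 2 * k + 1 := ⟨p / 2, by omega⟩
  have h1 : (2 * k + 1) ^ 2 - 1 = 4 * (k * (k + 1)) := by
    have : (2 * k + 1) ^ 2 = 4 * (k * (k + 1)) + 1 := by ring
    omega
  rw [h1]
  obtain ⟨m, hm⟩ := Nat.even_mul_succ_self k
  rw [hm]
  exact ⟨m, by ring⟩

theorem four_dvd {c : ℕ} (h : Ok p c) : 4 ∣ c := by
  have h8 := eight_dvd hp h7
  rcases h with h | h | ⟨-, rfl⟩
  · have h1 : 8 ∣ 2 * c := by rw [h]; exact Dvd.dvd.mul_left h8 p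
    omega
  · rw [h, D_eq hp h7]
    exact Dvd.dvd.mul_left (Dvd.dvd.mul_right ((by norm_num : (4 : ℕ) ∣ 8).trans h8) _) _
  · norm_num

theorem D_pos : 0 < D p := by
  rw [D_eq hp h7]
  have h1 : 0 < p ^ 2 := Nat.pow_pos hp.pos
  have h2 : 49 ≤ p ^ 2 := by nlinarith
  have h3 : 0 < p ^ 2 - 1 := by omega
  have h4 : 0 < (p ^ 2 + 1) / 2 := by omega
  positivity

theorem prod_false {a b : ℕ} (ha : Ok p a) (hb : Ok p b) : ¬ a * b ∣ D p := by
  intro h
  have hD := D_pos hp h7
  have h49 : 49 ≤ p ^ 2 := by nlinarith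
  have h343 : 48 * 7 ≤ p * (p ^ 2 - 1) := by
    rw [mul_comm]
    exact Nat.mul_le_mul h7 (by omega)
  have ge : ∀ c, Ok p c → 2 ≤ c := by
    intro c hc
    rcases hc with h | h | ⟨-, rfl⟩
    · omega
    · rw [h, D_eq hp h7]
      have h4 : 1 ≤ (p ^ 2 + 1) / 2 := by omega
      have h5 : 1 ≤ p ^ 2 - 1 := by omega
      have h6 : 1 ≤ (p ^ 2 - 1) * ((p ^ 2 + 1) / 2) := Nat.mul_pos h5 h4
      nlinarith
    · norm_num
  have ha2 := ge a ha
  have hb2 := ge b hb
  have hle := Nat.le_of_dvd hD h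
  rcases ha with ha | ha | ⟨hp17, ha⟩
  · rcases hb with hb | hb | ⟨hp17, hb⟩
    · have hab : a = b := by omega
      subst hab
      have h1 : (2 * a) * (2 * a) ∣ 4 * D p := by
        have : (2 * a) * (2 * a) = 4 * (a * a) := by ring
        rw [this]
        exact mul_dvd_mul_left 4 h
      rw [ha, D_eq hp h7] at h1
      obtain ⟨-, h2, -⟩ := half_eq hp h7
      have h3 : 4 * (p ^ 2 * ((p ^ 2 - 1) * ((p ^ 2 + 1) / 2))) =
          (p ^ 2 * (p ^ 2 - 1)) * (2 * (p ^ 2 + 1)) := by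
        calc 4 * (p ^ 2 * ((p ^ 2 - 1) * ((p ^ 2 + 1) / 2)))
            = (p ^ 2 * (p ^ 2 - 1)) * (2 * (2 * ((p ^ 2 + 1) / 2))) := by ring
          _ = _ := by rw [h2]
      have h4 : p * (p ^ 2 - 1) * (p * (p ^ 2 - 1)) = (p ^ 2 * (p ^ 2 - 1)) * (p ^ 2 - 1) := by
        ring
      rw [h3, h4] at h1
      have h5 : 0 < p ^ 2 * (p ^ 2 - 1) := Nat.mul_pos (by omega) (by omega)
      have h6 : p ^ 2 - 1 ∣ 2 * (p ^ 2 + 1) := Nat.dvd_of_mul_dvd_mul_left h5 h1
      have h7' : p ^ 2 - 1 ∣ 2 * (p ^ 2 + 1) - 2 * (p ^ 2 - 1) :=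
        Nat.dvd_sub h6 (Dvd.intro_left _ rfl)
      have h8 : 2 * (p ^ 2 + 1) - 2 * (p ^ 2 - 1) = 4 := by omega
      rw [h8] at h7'
      have := Nat.le_of_dvd (by norm_num) h7'
      omega
    · rw [hb] at hle
      nlinarith
    · subst hp17 hb
      norm_num at ha
      have ha' : a = 2448 := by omega
      rw [ha'] at h
      revert h
      norm_num [D]
  · rw [ha] at hle
    nlinarith
  · subst hp17 ha
    rcases hb with hb | hb | ⟨-, hb⟩
    · norm_num at hb
      have hb' : b = 2448 := by omega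
      rw [hb'] at h
      revert h
      norm_num [D]
    · rw [hb] at hle
      nlinarith
    · rw [hb] at h
      revert h
      norm_num [D]

end arith

/-- The hypothesis about the simple groups used below. -/
def SimpleHyp (p : ℕ) : Prop :=
  ∀ (H : Type u) [Group H] [Finite H], IsSimpleGroup H → (¬ ∀ a b : H, a * b = b * a) →
    Nat.card H ∣ D p → p ∣ Nat.card H →
      Ok p (Nat.card H) ∧ (Nat.card H = D p ∨ ¬ p ^ 2 ∣ Nat.card (MulAut H))

/-- A finite group with `O_p = O_{p'} = 1` and order dividing `D p`, divisible by `p ^ 2`. -/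
theorem caseB {Q : Type u} [Group Q] [Finite Q] {p : ℕ} (hp : p.Prime) (h7 : 7 ≤ p)
    (hd : Nat.card Q ∣ D p) (hp2 : p ^ 2 ∣ Nat.card Q) (h1 : Cfsg.pCore p Q = ⊥)
    (h2 : Cfsg.pPrimeCore p Q = ⊥) (hs : SimpleHyp.{u} p) :
    Nat.card Q = D p ∧ IsSimpleGroup Q := by
  have := Fact.mk hp
  have hD := D_pos hp h7
  -- every minimal normal subgroup is a simple group
  have key : ∀ M : Subgroup Q, M.Normal → M ≠ ⊥ →
      (∀ L : Subgroup Q, L.Normal → L ≤ M → L = ⊥ ∨ L = M) →
      IsSimpleGroup M ∧ (¬ ∀ a b : M, a * b = b * a) ∧ p ∣ Nat.card M := by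
    intro M hMn hM1 hmin
    obtain ⟨hpM, hM | ⟨T, hTM, hTs, hTna, hpT, m, hm, ⟨e⟩⟩⟩ := minNormal_cases hp h2 M hM1 hmin
    · exfalso
      have h3 := Cores.le_pCore hMn hM
      rw [h1, le_bot_iff] at h3
      exact hM1 h3
    · have hTd : Nat.card T ∣ D p := (card_subgroup_dvd_card T).trans hd
      have hok := (hs T hTs hTna hTd hpT).1
      have hm1 : m = 1 := by
        by_contra hne
        apply prod_false hp h7 hok hok
        refine dvd_trans ?_ ((card_subgroup_dvd_card M).trans hd)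
        rw [card_pow e, ← pow_two]
        exact pow_dvd_pow _ (by omega)
      subst hm1
      let e' : M ≃* T := e.trans (MulEquiv.funUnique (Fin 1) T)
      refine ⟨?_, ?_, hpM⟩
      · have := hTs
        exact e'.isSimpleGroup
      · intro hc
        apply hTna
        intro a b
        have h3 := hc (e'.symm a) (e'.symm b)
        rw [← map_mul, ← map_mul] at h3
        exact e'.symm.injective h3
  have hQ1 : (⊤ : Subgroup Q) ≠ ⊥ := by
    intro h3
    have h4 : Nat.card (⊤ : Subgroup Q) = 1 := by rw [h3, card_bot]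
    rw [card_top] at h4
    rw [h4] at hp2
    have := Nat.le_of_dvd one_pos hp2
    nlinarith
  obtain ⟨M, -, hMn, hM1, hmin⟩ := exists_min (⊤ : Subgroup Q) inferInstance hQ1
  obtain ⟨hMs, hMna, hpM⟩ := key M hMn hM1 hmin
  have hMd : Nat.card M ∣ D p := (card_subgroup_dvd_card M).trans hd
  obtain ⟨hok, hcase⟩ := hs M hMs hMna hMd hpM
  rcases hcase with hcase | hcase
  · have h3 : Nat.card Q = D p := Nat.dvd_antisymm hd (hcase ▸ card_subgroup_dvd_card M)
    refine ⟨h3, ?_⟩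
    have h4 : M = ⊤ := eq_top_of_card_eq M (by rw [hcase, h3])
    subst h4
    have := hMs
    exact (topEquiv : (⊤ : Subgroup Q) ≃* Q).symm.isSimpleGroup
  exfalso
  -- the centralizer of `M` has order divisible by `p`
  let f : Q →* MulAut M := MulAut.conjNormal
  have hker : f.ker ≤ centralizer (M : Set Q) := by
    intro g hg
    rw [mem_centralizer_iff]
    intro m hm
    have h3 : f g ⟨m, hm⟩ = ⟨m, hm⟩ := by
      rw [MonoidHom.mem_ker.mp hg]; rfl
    have h4 := congrArg Subtype.val h3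
    change g * m * g⁻¹ = m at h4
    exact (mul_inv_eq_iff_eq_mul.mp h4).symm
  have hpker : p ∣ Nat.card f.ker := by
    by_contra hnot
    apply hcase
    have h3 : Nat.card Q = Nat.card f.range * Nat.card f.ker := by
      rw [card_eq_card_quotient_mul_card_subgroup f.ker]
      congr 1
      exact Nat.card_congr (QuotientGroup.quotientKerEquivRange f).toEquiv
    rw [h3] at hp2
    have h4 : p ^ 2 ∣ Nat.card f.range :=
      (Nat.Coprime.pow_left 2 (hp.coprime_iff_not_dvd.mpr hnot)).dvd_of_dvd_mul_right hp2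
    exact h4.trans (card_subgroup_dvd_card _)
  have hker1 : f.ker ≠ ⊥ := by
    intro h3
    rw [h3, card_bot] at hpker
    exact hp.one_lt.ne' (Nat.dvd_one.mp hpker)
  obtain ⟨L, hLk, hLn, hL1, hLmin⟩ := exists_min f.ker inferInstance hker1
  obtain ⟨hLs, hLna, hpL⟩ := key L hLn hL1 hLmin
  have hLd : Nat.card L ∣ D p := (card_subgroup_dvd_card L).trans hd
  obtain ⟨hokL, -⟩ := hs L hLs hLna hLd hpL
  have hinf : M ⊓ L = ⊥ := by
    rcases hmin (M ⊓ L) inferInstance inf_le_left with h3 | h3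
    · exact h3
    · exfalso
      apply hMna
      intro a b
      have h4 : (a : Q) ∈ centralizer (M : Set Q) := hker (hLk ((inf_eq_left.mp h3) a.2))
      exact Subtype.ext (mem_centralizer_iff.mp h4 b b.2).symm
  apply prod_false hp h7 hok hokL
  refine dvd_trans ?_ hd
  rw [card_eq_card_quotient_mul_card_subgroup M, mul_comm]
  apply mul_dvd_mul_right
  have hinj : Function.Injective ((QuotientGroup.mk' M).comp L.subtype) := by
    rw [injective_iff_map_eq_one]
    intro a ha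
    have h3 : (a : Q) ∈ M := (QuotientGroup.eq_one_iff _).mp ha
    have h4 : (a : Q) ∈ M ⊓ L := ⟨h3, a.2⟩
    rw [hinf, mem_bot] at h4
    exact Subtype.ext h4
  exact card_dvd_of_injective _ hinj

/-- **A group of order `p ^ 2 (p ^ 4 - 1) / 2` without nontrivial normal `p`-subgroups is simple.** -/
theorem simple_of_card {G : Type u} [Group G] [Finite G] {p : ℕ} (hp : p.Prime) (h7 : 7 ≤ p)
    (hcard : Nat.card G = D p) (hG : Cfsg.pCore p G = ⊥) (hs : SimpleHyp.{u} p) :
    IsSimpleGroup G := by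
  have := Fact.mk hp
  have h1 := pCore_quotient_eq_bot hp h7 hcard hG
    (fun H _ _ h1 h2 h3 h4 => four_dvd hp h7 (hs H h1 h2 h3 h4).1)
  have h2 : Cfsg.pPrimeCore p (G ⧸ Cfsg.pPrimeCore p G) = ⊥ := Cores.pPrimeCore_quotient_pPrimeCore p
  have h3 : Nat.card (G ⧸ Cfsg.pPrimeCore p G) ∣ D p := by
    rw [← hcard]; exact card_quotient_dvd_card _
  have h4 := card_eq_card_quotient_mul_card_subgroup (Cfsg.pPrimeCore p G)
  have h5 : p ^ 2 ∣ Nat.card (G ⧸ Cfsg.pPrimeCore p G) := by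
    have h6 : p ^ 2 ∣ Nat.card G := by rw [hcard, D]; exact Dvd.intro _ rfl
    rw [h4] at h6
    exact (Nat.Coprime.pow_left 2 (Cores.pPrimeCore_coprime p).symm).dvd_of_dvd_mul_right h6
  obtain ⟨h6, h7'⟩ := caseB hp h7 h3 h5 h1 h2 hs
  rw [hcard, h6] at h4
  have hD := D_pos hp h7
  have h8 : Nat.card (Cfsg.pPrimeCore p G) = 1 := by
    have h9 : D p * 1 = D p * Nat.card (Cfsg.pPrimeCore p G) := by rw [mul_one]; exact h4
    exact (Nat.eq_of_mul_eq_mul_left hD h9).symm
  rw [card_eq_one] at h8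
  have e : G ⧸ Cfsg.pPrimeCore p G ≃* G :=
    (QuotientGroup.quotientMulEquivOfEq h8).trans QuotientGroup.quotientBot
  exact e.symm.isSimpleGroup

end Cfsg.Agent.H405.PSq
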